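import Cfsg.Agent.H64.QF.M24Cert

/-!
# The certificate in `M24` with the fixed element `S8` (helper64)
-/

set_option autoImplicit false
set_option Elab.async false

open Cfsg Subgroup

namespace Cfsg.Agent.H64.QF.M24Cert

open Cfsg.Agent.SporadicStructure.M24El Cfsg.Agent.SporadicA.GolayPerm Cfsg.Agent.Lib.F2Mat
open Cfsg.Agent.H854.Ore

/-- an element of cycle type `3^8` -/
noncomputable def S8 : M24 := el 48658384971103958334793714344528919

theorem ok_S8 : ok 48658384971103958334793714344528919 = true := by decide +kernel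

theorem S8_cube : S8 ^ 3 = 1 := by
  have h : ppw 48658384971103958334793714344528919 3 = idP := by decide +kernel
  have h2 := congrArg el h
  rwa [(el_ppw ok_S8 3).2, el_idP] at h2

theorem S8_move (p : GolayPt) : S8 • p ≠ p := by
  intro h
  have h1 := idx_el_smul ok_S8 p
  rw [show el 48658384971103958334793714344528919 = S8 from rfl, h] at h1
  have h2 : ∀ i < 24, papp 48658384971103958334793714344528919 i ≠ i := by decide +kernel
  exact h2 _ (SporadicA.GolayBase.idx_lt p) h1.symm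

/-- fixed-point-free elements of order 3 are conjugate to `S8` -/
theorem three_conj8 {u : M24} (hu : u ^ 3 = 1) (hf : ∀ p : GolayPt, u • p ≠ p) : ∃ b : M24, b * u * b⁻¹ = S8 := by
  obtain ⟨c, hc⟩ := three_conj S8_cube S8_move
  obtain ⟨d, hd⟩ := three_conj hu hf
  refine ⟨c⁻¹ * d, ?_⟩
  calc c⁻¹ * d * u * (c⁻¹ * d)⁻¹ = c⁻¹ * (d * u * d⁻¹) * c := by group
    _ = c⁻¹ * (c * S8 * c⁻¹) * c := by rw [hd, hc]
    _ = S8 := by group

/-- **the certificate, with `S8` itself** -/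
theorem m24_cert8 {u : M24} {n : ℕ} (hu : u ^ (3 * 2 ^ n) = 1) (h1 : u ≠ 1) :
    ∃ g y w : M24, g * u * g⁻¹ = S8 * y * S8⁻¹ * y⁻¹ ∧ w ∈ closure {S8, y} ∧ orderOf w = 23 := by
  obtain ⟨c, y, w, h2, h3, h4, h5⟩ := m24_cert hu h1
  obtain ⟨d, hd⟩ := three_conj8 s0_cube s0_move
  have : Fact (Nat.Prime 23) := ⟨by norm_num⟩
  refine ⟨d * c, d * y * d⁻¹, d * w * d⁻¹, ?_, ?_, ?_⟩
  · rw [← hd]
    calc d * c * u * (d * c)⁻¹ = d * (c * u * c⁻¹) * d⁻¹ := by group
      _ = d * (s0 * y * s0⁻¹ * y⁻¹) * d⁻¹ := by rw [h2]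
      _ = _ := by group
  · have h6 : (closure {s0, y}).map (MulAut.conj d).toMonoidHom = closure {S8, d * y * d⁻¹} := by
      rw [MonoidHom.map_closure, Set.image_pair]
      show closure {d * s0 * d⁻¹, d * y * d⁻¹} = _
      rw [hd]
    rw [← h6]
    exact ⟨w, h3, rfl⟩
  · apply orderOf_eq_prime
    · rw [conj_pow, h4]; group
    · intro h
      apply h5
      have : w = d⁻¹ * (d * w * d⁻¹) * d := by group
      rw [this, h]; group

/-- **the certificate in helper265's form** -/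
theorem m24_cert' {u : M24} {n : ℕ} (hu : u ^ (3 * 2 ^ n) = 1) (h1 : u ≠ 1) :
    ∃ g s y w b : M24, g * u * g⁻¹ = s * y * s⁻¹ * y⁻¹ ∧ b * s * b⁻¹ = S8 ∧ w ∈ closure {s, y} ∧ orderOf w = 23 := by
  obtain ⟨g, y, w, h2, h3, h4⟩ := m24_cert8 hu h1
  exact ⟨g, S8, y, w, 1, h2, by group, h3, h4⟩

end Cfsg.Agent.H64.QF.M24Cert
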